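import Cfsg.Agent.QW.A
import Cfsg.Agent.S3035
import Cfsg.Agent.H12.Lin
import Cfsg.Agent.H1.Cores

/-! The centralizer of the first `A₄` factor. -/

set_option autoImplicit false

namespace Cfsg.Agent.QW

open Subgroup

variable {G : Type*} [Group G]

namespace PK

theorem idx [Finite G] (K : Subgroup G) (t : G) (l : List G) (hl : l.Nodup) (hm : ∀ x ∈ l, ∃ k ∈ K, k * t * k⁻¹ = x) :
    l.length ≤ ((centralizer ({t} : Set G)).subgroupOf K).index := by
  classical
  set L := (centralizer ({t} : Set G)).subgroupOf K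
  haveI := Fintype.ofFinite (K ⧸ L)
  rw [← List.toFinset_card_of_nodup hl, Subgroup.index, Nat.card_eq_fintype_card]
  refine le_trans (Finset.card_le_card (t := Finset.univ.image fun q : K ⧸ L => (q.out : G) * t * (q.out : G)⁻¹) fun x hx => ?_)
    Finset.card_image_le
  obtain ⟨k, hk, rfl⟩ := hm x (List.mem_toFinset.1 hx)
  obtain ⟨u, hu⟩ := QuotientGroup.mk_out_eq_mul L ⟨k, hk⟩
  have e : ((u : K) : G) * t = t * (u : K) := mem_centralizer_singleton_iff.1 (mem_subgroupOf.1 u.2)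
  refine Finset.mem_image.2 ⟨(⟨k, hk⟩ : K), Finset.mem_univ _, ?_⟩
  rw [hu, coe_mul]
  calc _ = k * (((u : K) : G) * t) * ((u : K) : G)⁻¹ * k⁻¹ := by group
    _ = _ := by rw [e]; group

theorem rank3 [Finite G] (hq : Cfsg.IsQuasithin G) (T : Subgroup G) (h2 : IsPGroup 2 T) (hT : T ≠ ⊥) (K : Subgroup G) {u v r : G}
    (hu : u ∈ K) (hv : v ∈ K) (hr : r ∉ K) (nu : u ∈ normalizer (T : Set G)) (nv : v ∈ normalizer (T : Set G))
    (nr : r ∈ normalizer (T : Set G)) (c1 : u * v = v * u) (c2 : u * r = r * u) (c3 : v * r = r * v)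
    (u3 : u ^ 3 = 1) (v3 : v ^ 3 = 1) (r3 : r ^ 3 = 1)
    (inj : Function.Injective fun q : Fin 3 × Fin 3 => u ^ q.1.val * v ^ q.2.val) : False := by
  let E := closure ({u, v, r} : Set G)
  have hc : ∀ x ∈ ({u, v, r} : Set G), ∀ y ∈ ({u, v, r} : Set G), x * y = y * x := by
    rintro x (rfl | rfl | rfl) y (rfl | rfl | rfl) <;> first | rfl | assumption | (symm; assumption)
  haveI : IsMulCommutative E := isMulCommutative_closure hc
  have le : E ≤ normalizer (T : Set G) := (closure_le _).2 (by rintro x (rfl | rfl | rfl) <;> assumption)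
  have ex : ∀ x ∈ E, x ^ 3 = 1 := fun x hx => by
    induction hx using closure_induction with
    | mem x hx => rcases hx with rfl | rfl | rfl <;> assumption
    | one => simp
    | mul x y hx hy h1 h2 =>
      have : Commute x y := setLike_mul_comm (s := E) hx hy
      rw [this.mul_pow, h1, h2, one_mul]
    | inv x _ h1 => rw [inv_pow, h1, inv_one]
  have b := hq 3 Nat.prime_three (by norm_num) _ ⟨T, h2, hT, rfl⟩ (E.subgroupOf _) inferInstance
    fun x hx => Subtype.ext (ex _ (mem_subgroupOf.1 hx))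
  rw [Nat.card_congr (subgroupOfEquivOfLe le).toEquiv] at b
  have mu : u ∈ E := subset_closure (by simp)
  have mv : v ∈ E := subset_closure (by simp)
  have mr : r ∈ E := subset_closure (by simp)
  let f : Option (Fin 3 × Fin 3) → E := fun o => o.elim ⟨r, mr⟩ fun q => ⟨u ^ q.1.val * v ^ q.2.val, mul_mem (pow_mem mu _) (pow_mem mv _)⟩
  have k : ∀ q : Fin 3 × Fin 3, u ^ q.1.val * v ^ q.2.val ≠ r := fun q e => hr (e ▸ mul_mem (pow_mem hu _) (pow_mem hv _))
  have fi : Function.Injective f := by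
    rintro (_ | q) (_ | q') e
    · rfl
    · exact absurd (congrArg Subtype.val e).symm (k q')
    · exact absurd (congrArg Subtype.val e) (k q)
    · rw [inj (congrArg Subtype.val e)]
  have := Nat.card_le_card_of_injective f fi
  simp at this
  omega

theorem cm1 {p q n : G} (h1 : p * n = n * p) (h2 : p * (q * n * q⁻¹) = q * n * q⁻¹ * p) :
    p⁻¹ * q⁻¹ * p * q * n = n * (p⁻¹ * q⁻¹ * p * q) := by
  have h3 : p⁻¹ * n = n * p⁻¹ := (Commute.inv_left h1 :)
  calc _ = p⁻¹ * q⁻¹ * (p * (q * n * q⁻¹)) * q := by group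
    _ = p⁻¹ * n * q⁻¹ * p * q := by rw [h2]; group
    _ = _ := by rw [h3]; group

theorem cj {x y : G} (c : G) (h : x * y = y * x) : c * x * c⁻¹ * (c * y * c⁻¹) = c * y * c⁻¹ * (c * x * c⁻¹) := by
  calc _ = c * (x * y) * c⁻¹ := by group
    _ = _ := by rw [h]; group

theorem a6 : ∃ u v : alternatingGroup (Fin 6), u * v = v * u ∧ u ^ 3 = 1 ∧ v ^ 3 = 1 ∧
    Function.Injective fun q : Fin 3 × Fin 3 => u ^ q.1.val * v ^ q.2.val := by
  refine ⟨⟨Equiv.swap 0 1 * Equiv.swap 1 2, by simp [Equiv.Perm.mem_alternatingGroup]⟩,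
    ⟨Equiv.swap 3 4 * Equiv.swap 4 5, by simp [Equiv.Perm.mem_alternatingGroup]⟩,
    Subtype.ext (by simp only [coe_mul]; decide), Subtype.ext (by simp only [coe_pow, coe_one]; decide),
    Subtype.ext (by simp only [coe_pow, coe_one]; decide), fun q q' e => ?_⟩
  have := congrArg Subtype.val e
  simp only [coe_mul, coe_pow] at this
  revert q q'
  intro q q' _
  revert q q'
  decide +kernel

end PK

open PK

theorem pk [Finite G] {j : D × D →* G} {s r : G} {P : Sylow 2 G} (hq : Cfsg.IsQuasithin G) (h : Cx j s r P) (c : Ce j) {ρ : G}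
    (h3 : orderOf ρ = 3) (c1 : ρ * j (z, 1) = j (z, 1) * ρ) (c2 : ρ * j (a, 1) = j (a, 1) * ρ)
    (e1 : ρ * j (1, z) * ρ⁻¹ = j (1, b)) (e2 : ρ * j (1, b) * ρ⁻¹ = j (1, b * z)) (e3 : ρ * j (b, 1) * ρ⁻¹ = j (b, b * z)) :
    False := by
  have jm : ∀ x y x' y', j (x, y) * j (x', y') = j (x * x', y * y') := fun x y x' y' => (map_mul j (x, y) (x', y')).symm
  have ji : ∀ {x y x' y'}, j (x, y) = j (x', y') → x = x' ∧ y = y' := fun e => Prod.mk.inj (h.inj e)
  have j1 : j (1, 1) = 1 := map_one j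
  have jc : ∀ x y, j (1, y) * j (x, 1) = j (x, 1) * j (1, y) := fun x y => by rw [jm, jm]; simp
  have A2 : ∀ x : D, InA x → x * x = 1 := by decide
  have r3 : r ^ 3 = 1 := h.r3 ▸ pow_orderOf_eq_one r
  have ρ3 : ρ ^ 3 = 1 := h3 ▸ pow_orderOf_eq_one ρ
  have raz : r * j (a * z, 1) * r⁻¹ = j (z, 1) := by
    calc _ = r * j (a, 1) * r⁻¹ * (r * j (z, 1) * r⁻¹) := by rw [← mul_one (1 : D), ← jm]; group
      _ = _ := by rw [h.ra, h.rz, jm]; congr 1
  have rx : ∀ x, InA x → ∃ x' x'', r * j (x, 1) * r⁻¹ = j (x', 1) ∧ r * j (x', 1) * r⁻¹ = j (x'', 1) ∧ x' * x'' * x = 1 ∧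
      InA x' ∧ (x' = x → x = 1) := by
    rintro x (rfl | rfl | rfl | rfl)
    exacts [⟨1, 1, by simp [j1], by simp [j1], by decide, by decide, by decide⟩, ⟨_, _, h.rz, h.ra, by decide, by decide, by decide⟩,
      ⟨_, _, h.ra, raz, by decide, by decide, by decide⟩, ⟨_, _, raz, h.rz, by decide, by decide, by decide⟩]
  have cA : ∀ g, g * j (z, 1) = j (z, 1) * g → g * j (a, 1) = j (a, 1) * g → ∀ x, InA x → g * j (x, 1) = j (x, 1) * g := by
    rintro g g1 g2 x (rfl | rfl | rfl | rfl)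
    · simp [j1]
    · exact g1
    · exact g2
    · rw [← mul_one (1 : D), ← jm]; exact (Commute.mul_right g2 g1 :)
  have ρr : ρ * r = r * ρ := by
    have w1 : ∀ x, InA x → r⁻¹ * ρ⁻¹ * r * ρ * j (x, 1) = j (x, 1) * (r⁻¹ * ρ⁻¹ * r * ρ) := fun x hx => by
      obtain ⟨x', -, q1, -, -, q2, -⟩ := rx x hx
      have := Commute.inv_left (cm1 (cA ρ c1 c2 x hx) (q := r) (q1 ▸ cA ρ c1 c2 x' q2))
      have e : (ρ⁻¹ * r⁻¹ * ρ * r)⁻¹ = r⁻¹ * ρ⁻¹ * r * ρ := by group
      rwa [e] at this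
    obtain ⟨x, y, hx, e⟩ := c.cE _ (w1 z (by decide)) (w1 a (by decide)) (cm1 (h.rc z) (e1 ▸ h.rc b))
    have y2 : y * y = 1 := by
      have := cm1 (h.rc b) (q := ρ) (e2 ▸ h.rc (b * z))
      rw [e, jm, jm] at this
      exact (by decide : ∀ y : D, y * b = b * y → y * y = 1) y (ji this).2
    obtain ⟨x', x'', q1, q2, q3, -⟩ := rx x hx
    have t1 : (r * j (x, y)) ^ 3 = 1 := by
      calc _ = ρ⁻¹ * r ^ 3 * ρ := by rw [← e]; simp only [pow_succ, pow_zero, one_mul, mul_assoc, mul_inv_cancel_left]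
        _ = _ := by rw [r3]; group
    have t2 : (r * j (x, 1)) ^ 3 = 1 := by
      calc _ = r * j (x, 1) * r⁻¹ * (r * (r * j (x, 1) * r⁻¹) * r⁻¹) * r ^ 3 * j (x, 1) := by simp only [pow_succ]; group
        _ = _ := by rw [q1, q2, r3, mul_one, jm, jm, q3]; simpa using j1
    have cc : Commute (r * j (x, 1)) (j (1, y)) := Commute.mul_left (h.rc y) (jc x y).symm
    have t3 := cc.mul_pow 3
    rw [mul_assoc, jm, mul_one, one_mul, t1, t2, one_mul, pow_succ, pow_two, jm, jm, y2, ← j1] at t3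
    have y1 : y = 1 := by simpa using (ji t3).2.symm
    subst y1
    have cc : Commute ρ⁻¹ (j (x, 1)) := Commute.inv_left (cA ρ c1 c2 x hx)
    have t4 := cc.symm.mul_pow 3
    have x2 : x * x = 1 := A2 x hx
    have t5 : (j (x, 1) * ρ⁻¹) ^ 3 = 1 := by
      calc _ = r⁻¹ * (ρ ^ 3)⁻¹ * r := by rw [← e]; simp only [pow_succ]; group
        _ = _ := by rw [ρ3]; group
    rw [t5, inv_pow, ρ3, inv_one, mul_one, pow_succ, pow_two, jm, jm, x2, one_mul, mul_one, mul_one, ← e] at t4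
    calc _ = ρ * r * (r⁻¹ * ρ⁻¹ * r * ρ) := by rw [← t4, mul_one]
      _ = _ := by group
  obtain ⟨R, hR⟩ : ∃ R, R = s * r * s⁻¹ := ⟨_, rfl⟩
  have Rc : ∀ x, R * j (x, 1) = j (x, 1) * R := fun x => by rw [hR, ← h.sw 1 x]; exact cj s (h.rc x)
  have Rj : ∀ {x x'}, r * j (x, 1) * r⁻¹ = j (x', 1) → R * j (1, x) * R⁻¹ = j (1, x') := fun {x x'} e => by
    rw [hR, ← h.sw x 1, ← h.sw x' 1, ← e]; group
  have R3 : orderOf R = 3 := by rw [hR, ← h.r3]; exact (orderOf_injective (MulAut.conj s).toMonoidHom (MulAut.conj s).injective r)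
  have R3' : R * R * R = 1 := by rw [← pow_two, ← pow_succ]; exact (R3 ▸ pow_orderOf_eq_one R : R ^ 3 = 1)
  let K : Subgroup G := centralizer {j (z, 1)} ⊓ centralizer {j (a, 1)} ⊓ centralizer {r}
  have mK : ∀ g, g ∈ K ↔ g * j (z, 1) = j (z, 1) * g ∧ g * j (a, 1) = j (a, 1) * g ∧ g * r = r * g := fun g => by
    simp only [K, mem_inf, mem_centralizer_singleton_iff, and_assoc]
  have jK : ∀ y, j (1, y) ∈ K := fun y => (mK _).2 ⟨jc _ _, jc _ _, (h.rc y).symm⟩
  have RK : R ∈ K := (mK _).2 ⟨Rc _, Rc _, hR ▸ h.rr.symm⟩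
  have ρK : ρ ∈ K := (mK _).2 ⟨c1, c2, ρr⟩
  let φ : D →* K := (j.comp (MonoidHom.inr D D)).codRestrict K jK
  have φv : ∀ y, (φ y : G) = j (1, y) := fun _ => rfl
  have φi : Function.Injective φ := fun y y' e => (ji (congrArg Subtype.val e)).2
  have cz : centralizer ({φ z} : Set K) = φ.range := by
    ext g
    rw [mem_centralizer_singleton_iff]
    refine ⟨fun e => ?_, ?_⟩
    · obtain ⟨g1, g2, g3⟩ := (mK _).1 g.2
      obtain ⟨x, y, hx, e'⟩ := c.cE g g1 g2 (congrArg Subtype.val e)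
      obtain ⟨x', -, q1, -, -, -, q2⟩ := rx x hx
      have : r * j (x, 1) * r⁻¹ = j (x, 1) := by
        have q3 : j (x, 1) = g * (j (1, y))⁻¹ := by rw [e', eq_mul_inv_iff_mul_eq, jm]; simp
        have : Commute r (g * (j (1, y))⁻¹) := Commute.mul_right g3.symm (Commute.inv_right (h.rc y))
        rw [q3, this.eq, mul_inv_cancel_right]
      refine ⟨y, Subtype.ext ?_⟩
      rw [φv, e', q2 (ji (q1.symm.trans this)).1]
    · rintro ⟨y, rfl⟩
      rw [← map_mul, ← map_mul]; congr 1; revert y; decide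
  have big : 192 ≤ Nat.card K := by
    set L := (centralizer ({j (b, 1)} : Set G)).subgroupOf K with hL
    have d8 : 8 ∣ Nat.card L := by
      have : φ.range ≤ L := by
        rintro _ ⟨y, rfl⟩
        exact mem_subgroupOf.2 (mem_centralizer_singleton_iff.2 (jc _ _))
      have := card_dvd_of_le this
      rwa [← Nat.card_congr (MonoidHom.ofInjective φi).toEquiv, DihedralGroup.nat_card] at this
    have d3 : 3 ∣ Nat.card L := by
      have := L.orderOf_dvd_natCard (x := ⟨R, RK⟩) (mem_subgroupOf.2 (mem_centralizer_singleton_iff.2 (Rc _)))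
      rwa [← orderOf_coe, R3] at this
    have d24 : 24 ≤ Nat.card L := Nat.le_of_dvd Nat.card_pos (Nat.Coprime.mul_dvd_of_dvd_of_dvd (by norm_num) d8 d3)
    have k1 : ∀ x y, (x = b ∨ x = b * z) → (y = b ∨ y = b * z) → j (1, x) ≠ R * j (1, y) * R⁻¹ := fun x y hx hy e => by
      have : j (1, x) * j (1, z) = j (1, z) * j (1, x) := by rw [jm, jm, (by decide : ∀ x : D, x * z = z * x) x]
      rw [e, ← Rj raz] at this
      have := cj R⁻¹ this
      simp only [inv_inv, mul_assoc, inv_mul_cancel_left, inv_mul_cancel, mul_one, jm] at this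
      have := (ji this).2
      rcases hy with rfl | rfl <;> revert this <;> decide
    have k2 : ∀ x y, (x = b ∨ x = b * z) → (y = b ∨ y = b * z) → j (1, x) ≠ R⁻¹ * j (1, y) * R := fun x y hx hy e =>
      k1 y x hy hx (by rw [e]; group)
    have k3 : ∀ x y, (x = b ∨ x = b * z) → (y = b ∨ y = b * z) → R * j (1, x) * R⁻¹ ≠ R⁻¹ * j (1, y) * R := fun x y hx hy e =>
      k2 y x hy hx (by
        calc _ = R * (R⁻¹ * j (1, y) * R) * R⁻¹ := by group
          _ = R⁻¹ * (R * R * R) * j (1, x) * (R * R * R)⁻¹ * R := by rw [← e]; group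
          _ = _ := by rw [R3']; group)
    have k4 : j (1, b) ≠ j (1, b * z) := fun e => absurd (ji e).2 (by decide)
    have k5 : 1 ≠ j (1, b) := fun e => absurd (ji (j1.trans e)).2 (by decide)
    have k6 : 1 ≠ j (1, b * z) := fun e => absurd (ji (j1.trans e)).2 (by decide)
    have k7 : ∀ g t : G, 1 ≠ t → 1 ≠ g * t * g⁻¹ := fun g t n e => n (by simpa using e.symm : t = 1).symm
    have k8 : ∀ g t : G, 1 ≠ t → 1 ≠ g⁻¹ * t * g := fun g t n => by simpa using k7 g⁻¹ t n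
    have l : b = b ∨ b = b * z := .inl rfl
    have r' : b * z = b ∨ b * z = b * z := .inr rfl
    have nd : [1, j (1, b), j (1, b * z), R * j (1, b) * R⁻¹, R * j (1, b * z) * R⁻¹, R⁻¹ * j (1, b) * R,
        R⁻¹ * j (1, b * z) * R].Nodup := by
      simp only [List.nodup_cons, List.mem_cons, List.not_mem_nil, or_false, not_or, List.nodup_nil, and_true, not_false_eq_true]
      exact ⟨⟨k5, k6, k7 _ _ k5, k7 _ _ k6, k8 _ _ k5, k8 _ _ k6⟩, ⟨k4, k1 _ _ l l, k1 _ _ l r', k2 _ _ l l, k2 _ _ l r'⟩,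
        ⟨k1 _ _ r' l, k1 _ _ r' r', k2 _ _ r' l, k2 _ _ r' r'⟩, ⟨by simpa using k4, k3 _ _ l l, k3 _ _ l r'⟩,
        ⟨k3 _ _ r' l, k3 _ _ r' r'⟩, by simpa using k4⟩
    have f1 : ρ * j (b, 1) * ρ⁻¹ = j (b, 1) * j (1, b * z) := by rw [e3, jm]; simp
    have f2 : j (1, a) * ρ * j (b, 1) * (j (1, a) * ρ)⁻¹ = j (b, 1) * j (1, b) := by
      calc _ = j (1, a) * (ρ * j (b, 1) * ρ⁻¹) * (j (1, a))⁻¹ := by group
        _ = _ := by rw [e3, mul_inv_eq_iff_eq_mul, jm, jm, jm]; congr 1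
    have f3 : ∀ g k u : G, g * j (b, 1) = j (b, 1) * g → k * j (b, 1) * k⁻¹ = j (b, 1) * u →
        g * k * j (b, 1) * (g * k)⁻¹ = j (b, 1) * (g * u * g⁻¹) := fun g k u q1 q2 => by
      calc _ = g * (k * j (b, 1) * k⁻¹) * g⁻¹ := by group
        _ = g * j (b, 1) * u * g⁻¹ := by rw [q2]; group
        _ = _ := by rw [q1]; group
    have Ri : R⁻¹ * j (b, 1) = j (b, 1) * R⁻¹ := (Commute.inv_left (Rc b) :)
    have cb : ∀ g y, g * j (b, 1) = j (b, 1) * g → Commute (j (b, 1) * (g * j (1, y) * g⁻¹)) (j (b, 1)) := fun g y q =>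
      (Commute.refl _).mul_left (Commute.mul_left (Commute.mul_left q (jc _ _)) (Commute.inv_left q))
    have nc : ¬ Commute (ρ⁻¹ * (j (b, 1) * (R * j (1, b * z) * R⁻¹)) * ρ) (j (b, 1)) := fun q => by
      have q1 := cj ρ q
      rw [f1, show ρ * (ρ⁻¹ * (j (b, 1) * (R * j (1, b * z) * R⁻¹)) * ρ) * ρ⁻¹ = j (b, 1) * (R * j (1, b * z) * R⁻¹) by group] at q1
      have q2 : Commute (j (b, 1) * (R * j (1, b * z) * R⁻¹)) (j (1, b * z)) := by
        simpa using ((cb R (b * z) (Rc b)).inv_right).mul_right q1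
      have q3 : Commute (R * j (1, b * z) * R⁻¹) (j (1, b * z)) := by
        simpa using (Commute.inv_left (jc b (b * z)).symm).mul_left q2
      have q4 : j (1, b * z) * j (1, z) = j (1, z) * j (1, b * z) := by rw [jm, jm]; congr 1
      have q5 := cj (R * j (1, b * z) * R⁻¹) q4
      have q6 : R * j (1, b * z) * R⁻¹ * j (1, z) * (R * j (1, b * z) * R⁻¹)⁻¹ = j (1, a * z) := by
        have q7 : j (1, b * z) * j (1, a * z) * (j (1, b * z))⁻¹ = j (1, a) := by
          rw [mul_inv_eq_iff_eq_mul, jm, jm]; congr 1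
        rw [← Rj h.ra, ← q7, ← Rj raz]; group
      rw [q6, q3.eq, mul_inv_cancel_right, jm, jm] at q5
      exact absurd (ji q5).2 (by decide)
    have i8 := idx K (j (b, 1)) (ρ⁻¹ * (j (b, 1) * (R * j (1, b * z) * R⁻¹)) * ρ :: List.map (j (b, 1) * ·) _)
      (List.nodup_cons.2 ⟨fun m => nc ?_, nd.map (mul_right_injective _)⟩) ?_
    · have := L.card_mul_index
      simp only [List.length_cons, List.length_map, List.length_nil] at i8
      rw [← hL] at i8
      nlinarith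
    · simp only [List.map_cons, List.map_nil, List.mem_cons, List.not_mem_nil, or_false] at m
      rcases m with m | m | m | m | m | m | m <;> rw [m]
      exacts [by simp, by simpa using cb 1 b (by simp), by simpa using cb 1 (b * z) (by simp), cb R _ (Rc b), cb R _ (Rc b),
        by simpa using cb R⁻¹ b Ri, by simpa using cb R⁻¹ (b * z) Ri]
    · have aρ := mul_mem (jK a) ρK
      simp only [List.map_cons, List.map_nil, List.mem_cons, List.not_mem_nil, or_false]
      rintro x (rfl | rfl | rfl | rfl | rfl | rfl | rfl | rfl)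
      exacts [⟨ρ⁻¹ * (R * ρ), mul_mem (inv_mem ρK) (mul_mem RK ρK), by rw [← f3 R ρ _ (Rc b) f1]; group⟩, ⟨1, one_mem _, by simp⟩,
        ⟨_, aρ, f2⟩, ⟨_, ρK, f1⟩, ⟨_, mul_mem RK aρ, f3 _ _ _ (Rc b) f2⟩, ⟨_, mul_mem RK ρK, f3 _ _ _ (Rc b) f1⟩,
        ⟨_, mul_mem (inv_mem RK) aρ, by simpa using f3 _ _ _ Ri f2⟩, ⟨_, mul_mem (inv_mem RK) ρK, by simpa using f3 _ _ _ Ri f1⟩]
  rcases Cfsg.Agent.S3035.result (φ z) (by rw [orderOf_injective φ φi]; exact orderOf_eq_prime (by decide) (by decide))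
    ⟨(MulEquiv.subgroupCongr cz).trans (MonoidHom.ofInjective φi).symm⟩ with e | ⟨⟨e⟩⟩ | ⟨⟨e⟩⟩ | ⟨⟨e⟩⟩ | ⟨⟨e⟩⟩
  · let π := QuotientGroup.mk' (Cfsg.oddCore K)
    have : centralizer ({φ z} : Set K) ⊔ Cfsg.oddCore K ≤ (centralizer {π (φ z)}).comap π := by
      refine sup_le (fun g hg => ?_) fun g hg => ?_
      · rw [mem_comap, mem_centralizer_singleton_iff, ← map_mul, ← map_mul, mem_centralizer_singleton_iff.1 hg]
      · have : π g = 1 := (QuotientGroup.eq_one_iff g).2 hg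
        rw [mem_comap, this]; exact one_mem _
    have q := mem_centralizer_singleton_iff.1 (mem_comap.1 (this (e ▸ mem_top (⟨R, RK⟩ : K))))
    have q1 : (⟨R, RK⟩ : K) * φ z * (⟨R, RK⟩ : K)⁻¹ = φ a := Subtype.ext (Rj h.rz)
    have q2 : π (φ (a * z)) = 1 := by
      rw [map_mul, map_mul, ← q1, map_mul, map_mul, q, map_inv, mul_inv_cancel_right, ← map_mul, ← map_mul,
        show z * z = 1 by decide, map_one, map_one]
    have q3 := (Cfsg.oddCore K).orderOf_dvd_natCard ((QuotientGroup.eq_one_iff _).1 q2)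
    rw [orderOf_injective φ φi, orderOf_eq_prime (p := 2) (by decide) (by decide)] at q3
    exact H1.not_dvd_card_pPrimeCore 2 K q3
  · rw [Nat.card_congr e.toEquiv, Nat.card_perm] at big; simp [Nat.factorial] at big
  · rw [Nat.card_congr e.toEquiv, Nat.card_perm] at big; simp [Nat.factorial] at big
  · have := H12.card_SL_fin (ZMod.card 2) 3 (by norm_num)
    rw [show ∏ i : Fin 3, (2 ^ 3 - 2 ^ (i : ℕ)) = 168 by decide +kernel, show 2 - 1 = 1 from rfl, one_mul] at this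
    rw [Nat.card_congr e.toEquiv, this] at big; omega
  · obtain ⟨u, v, q1, q2, q3, q4⟩ := a6
    let ψ := K.subtype.comp e.symm.toMonoidHom
    have ψi : Function.Injective ψ := Subtype.val_injective.comp e.symm.injective
    have ψK : ∀ w, ψ w ∈ K := fun w => (e.symm w).2
    let T : Subgroup G :=
      { carrier := {g | ∃ x, InA x ∧ g = j (x, 1)}
        mul_mem' := by
          rintro _ _ ⟨x, hx, rfl⟩ ⟨y, hy, rfl⟩
          exact ⟨x * y, (by decide : ∀ x y : D, InA x → InA y → InA (x * y)) x y hx hy, by rw [jm, mul_one]⟩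
        one_mem' := ⟨1, by decide, j1.symm⟩
        inv_mem' := by
          rintro _ ⟨x, hx, rfl⟩
          exact ⟨x⁻¹, (by decide : ∀ x : D, InA x → InA x⁻¹) x hx, by rw [← map_inv]; simp⟩ }
    have nK : ∀ g ∈ K, g ∈ normalizer (T : Set G) := fun g hg => mem_normalizer_fintype (by
      rintro _ ⟨x, hx, rfl⟩
      exact ⟨x, hx, by rw [cA g ((mK g).1 hg).1 ((mK g).1 hg).2.1 x hx, mul_inv_cancel_right]⟩)
    refine rank3 hq T ?_ (fun e => ?_) K (ψK u) (ψK v) (r := r) (fun m => ?_) (nK _ (ψK u)) (nK _ (ψK v))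
      (mem_normalizer_fintype ?_) (by rw [← map_mul, q1, map_mul]) ((mK _).1 (ψK u)).2.2 ((mK _).1 (ψK v)).2.2
      (by rw [← map_pow, q2, map_one]) (by rw [← map_pow, q3, map_one]) r3 fun q q' e => q4 (ψi ?_)
    · rintro ⟨_, x, hx, rfl⟩
      refine ⟨1, Subtype.ext ?_⟩
      show j (x, 1) ^ 2 ^ 1 = 1
      rw [pow_one, pow_two, jm, A2 x hx, mul_one, j1]
    · have : j (z, 1) ∈ T := ⟨z, by decide, rfl⟩
      rw [e, mem_bot, ← j1] at this
      exact absurd (ji this).1 (by decide)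
    · have := h.rz
      rw [((mK r).1 m).1, mul_inv_cancel_right] at this
      exact absurd (ji this).1 (by decide)
    · rintro _ ⟨x, hx, rfl⟩
      obtain ⟨x', -, q1, -, -, q2, -⟩ := rx x hx
      exact ⟨x', q2, q1⟩
    · simpa only [map_mul, map_pow] using e

end Cfsg.Agent.QW
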