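import Cfsg.Agent.QW.R3
import Cfsg.Agent.QW.S
import Cfsg.Agent.QW.K

/-! The final contradiction. -/

set_option autoImplicit false
set_option synthInstance.maxSize 100000
set_option synthInstance.maxHeartbeats 400000

namespace Cfsg.Agent.QW

open Subgroup

variable {G : Type*} [Group G] [Finite G] {j : D × D →* G} {s r : G} {P : Sylow 2 G}

theorem case1 [IsSimpleGroup G] (hG : ¬ IsMulCommutative G) (hq : Cfsg.IsQuasithin G) (h : Cx j s r P) (n : Nt j s)
    (c : Ce j) (hc : IsConj (j (z, 1)) (j (b, 1))) : False := by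
  haveI : Fact (Nat.Prime 3) := ⟨Nat.prime_three⟩
  obtain ⟨ρ, r1, r2, q, hq', W⟩ := rho h n c (.inl rfl) hc
  have zb : IsConj (j (z, z)) (j (z, b)) := W.ic z z z b (by rcases hq' with rfl | rfl <;> decide +kernel)
  have zb' : IsConj (j (z, b)) (j (z, b * z)) := icT 1 a z b (by decide) (by decide)
  rcases rhoa h c (.inl rfl) r1 r2 hq' W with ha | ha
  · rcases hq' with rfl | rfl
    · have bb : IsConj (j (z, z)) (j (b, b)) := (zb.trans (h.icS z b)).trans (W.ic b z b b (by decide +kernel))
      have k : ∀ x : D, x * x = 1 → x ≠ 1 → InA x ∨ ∃ u : D, u * b * u⁻¹ = x := by decide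
      refine ps hG h n (fun x y x2 y2 x1 y1 => ?_) fun x x2 x1 => ?_
      · rcases k x x2 x1 with hx | ⟨u, hu⟩ <;> rcases k y y2 y1 with hy | ⟨v, hv⟩
        · exact h.icAA hx hy x1 y1
        · exact (zb.trans (h.icA hx x1 b)).trans (icT 1 v x b (by simp) hv)
        · exact ((zb.trans (h.icA hy y1 b)).trans (icT 1 u y b (by simp) hu)).trans (h.icS y x)
        · exact bb.trans (icT u v b b hu hv)
      · rcases k x x2 x1 with hx | ⟨u, hu⟩
        · exact h.icA hx x1 1
        · exact hc.trans (icT u 1 b 1 hu (by simp))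
    · have e1 := W.at' 1 z 1 b (by decide +kernel)
      refine pk hq h c (ρ := ρ) (orderOf_eq_prime r1 fun e => ?_)
        (mul_inv_eq_iff_eq_mul.1 (W.at' z 1 z 1 (by decide +kernel))) (mul_inv_eq_iff_eq_mul.1 ha) e1
        (W.at' 1 b 1 (b * z) (by decide +kernel)) (W.at' b 1 b (b * z) (by decide +kernel))
      rw [e, one_mul, inv_one, mul_one] at e1
      exact absurd (h.eq e1).2 (by decide)
  · rw [mul_one] at ha
    exact n.tz ((((h.icA (x := a) (by decide) (by decide) 1).trans (isConj_iff.2 ⟨ρ, ha⟩)).trans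
      (h.icA (x := a) (by decide) (by decide) (b * z)).symm).trans (zb.trans zb').symm)

theorem case2 (h : Cx j s r P) (n : Nt j s) (c : Ce j) (hc : IsConj (j (z, 1)) (j (b, z))) : False := by
  obtain ⟨ρ, r1, r2, q, hq', W⟩ := rho h n c (.inr rfl) hc
  have w1 := W.at' z 1 z 1 (by rcases hq' with rfl | rfl <;> decide +kernel)
  have w2 := W.at' 1 z z b (by rcases hq' with rfl | rfl <;> decide +kernel)
  have w3 := W.at' 1 b 1 (b * z) (by rcases hq' with rfl | rfl <;> decide +kernel)
  rcases rhoa h c (.inr rfl) r1 r2 hq' W with ha | ha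
  · have e : ρ * j (a, z) * ρ⁻¹ = j (a * z, b) := by
      have : j (a, z) = j (a, 1) * j (1, z) := by rw [jm]; rfl
      rw [this, cmul, ha, w2, jm]; rfl
    exact n.tz ((((hc.trans (h.icS b z)).trans (h.icA (x := a * z) (by decide) (by decide) b)).trans
      (isConj_iff.2 ⟨ρ, e⟩).symm).trans (h.icA (x := a) (by decide) (by decide) z).symm)
  · have A1 := act_lin (.inl rfl) w1 w2 w3 ha (by decide +kernel)
    have rc : ∀ y, r * j (1, y) * r⁻¹ = j (1, y) := fun y => by rw [h.rc, mul_inv_cancel_right]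
    have A2 := act_lin (.inl rfl) h.rz (rc z) (rc b) h.ra (by decide +kernel)
    have A3 : Act j a (j (b, 1)) _ := act_j a (b, 1) (by decide +kernel)
    have V := A1.mul ((A2.mul A2).mul (A3.mul A2))
    generalize ρ * (r * r * (j (b, 1) * r)) = w at V
    have V4 := ((V.mul V).mul (V.mul V)).cen (by decide +kernel)
    obtain ⟨x, y, hx, e⟩ := c.cE _ (V4 z 1 (by decide) (by decide)) (V4 a 1 (by decide) (by decide))
      (V4 1 z (by decide) (by decide))
    have hy : InB y := by
      have := V4 1 b (by decide) (by decide)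
      rw [e, jm, jm] at this
      exact (by decide : ∀ y : D, y * b = b * y → InB y) y (h.eq this).2
    have h4 : w ^ 4 ∈ pm j sA sB := by
      rw [show w ^ 4 = w * w * (w * w) by simp only [pow_succ, pow_zero, one_mul, mul_assoc]]
      exact mem_pm.2 ⟨x, y, hx, hy, e⟩
    have mt : Mt j s (normalizer (pm j sA sB : Set G)) := by
      refine ⟨?_, fun hs => ?_⟩
      · rintro _ ⟨p, rfl⟩
        exact (act_j a p (by revert p; decide +kernel)).norm sA fun _ => Iff.rfl
      · obtain ⟨x, y, -, hy, e⟩ := mem_pm.1 ((mem_normalizer_iff.1 hs (j (a, 1))).1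
          (mem_pm.2 ⟨a, 1, .inr (.inr (.inl rfl)), .inl rfl, rfl⟩))
        rw [h.sw] at e
        rw [← (h.eq e).2] at hy
        exact absurd (show InB a from hy) (by decide)
    have k5 := n.sq mt le_normalizer (pm2 sA sB) (V.norm sA fun _ => Iff.rfl) (V.norm sA fun _ => Iff.rfl) h4
      (mem_pm.2 ⟨1, b, .inl rfl, .inr (.inr (.inl rfl)), rfl⟩)
    have k6 := (V.mul V).at' 1 b z z (by decide +kernel)
    rw [k5, mul_inv_cancel_right] at k6
    exact absurd (h.eq k6).1 (by decide)

theorem main [IsSimpleGroup G] (hG : ¬ IsMulCommutative G) (hq : Cfsg.IsQuasithin G) (h : Cx j s r P) (n : Nt j s)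
    (c : Ce j) : False :=
  (h.two n).elim (case1 hG hq h n c) fun k => case2 h n c (h.caseII n k)

end Cfsg.Agent.QW
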